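import Cfsg.Agent.Mathieu.FusionTests
import Cfsg.Agent.M24Orbits.Data.SylowTwo
import Cfsg.Agent.Mathieu.M24

/-!
A Sylow `2`-subgroup of `M24` modulo its centre: maximal subgroups have centres of order at most
eight, and there is a single abelian subgroup of order 64, which is elementary abelian.
-/

set_option autoImplicit false

namespace CfsgLib.M24Orbits.SylowTwo

open Cfsg CfsgLib.Mathieu CfsgLib.Mathieu.Code Data

/-- The Sylow subgroup. -/
def sylK : Subgroup (Equiv.Perm GolayPt) := grpOf sylSeries

/-- The preimage of the abelian subgroup. -/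
def sylA : Subgroup (Equiv.Perm GolayPt) := grpOf (sylSeries.drop 3)

/-- Commuting modulo the centre, on codes. -/
def rel (a b : ℕ) : Bool := cmpC a b == cmpC b a || cmpC a b == cmpC (cmpC b a) sylZ

theorem series_ok : pcOK sylSeries = true ∧ pcOK (sylSeries.drop 3) = true ∧
    sylSeries.length = 10 ∧ (sylSeries.drop 3).length = 7 := by
  decide +kernel

theorem series_mem : ∀ p ∈ sylSeries, ∃ g ∈ M24, code g = p.1 ∧ code g⁻¹ = p.2 :=
  rep_of_check inM24 (fun _ h => inM24_mem h) _ (by decide +kernel)

theorem centre_facts :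
    (spanR (sylSeries.drop 3)).contains sylZ = true ∧
    (sylSeries.all fun s => cmpC s.1 sylZ == cmpC sylZ s.1) = true ∧
    (((spanR sylSeries).filter fun x => sylSeries.all fun s => cmpC x s.1 == cmpC s.1 x).all fun x =>
      x == idC || x == sylZ) = true ∧ sylZ ≠ idC := by
  decide +kernel

theorem abelian_facts :
    ((sylSeries.drop 3).all fun a => (sylSeries.drop 3).all fun b => rel a.1 b.1) = true ∧
    ((spanR (sylSeries.drop 3)).all fun a => cmpC a a == idC || cmpC a a == sylZ) = true := by
  decide +kernel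

/-- The eight coset representatives. -/
def cosetList : List ℕ := spanR (sylSeries.take 3)

theorem coset_facts : cosetList.length = 8 ∧ cosetList.getD 0 0 = idC ∧
    ((List.range 8).all fun i => i == 0 ||
      ((spanR (sylSeries.drop 3)).filter fun a => rel a (cosetList.getD i 0)).length ≤ 32) = true ∧
    ((List.range 8).all fun i => (List.range 8).all fun j => i == 0 || j == 0 || i == j ||
      ((spanR (sylSeries.drop 3)).filter fun a =>
        rel a (cosetList.getD i 0) && rel a (cosetList.getD j 0)).length ≤ 16) = true ∧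
    ((spanR (sylSeries.drop 3)).filter fun a =>
        ((List.range 8).erase 0).all fun i => rel a (cosetList.getD i 0)).length ≤ 8 := by
  decide +kernel

/-- One generator. -/
def gen (i : ℕ) : ℕ := sylGens.getD i 0

/-- Elements forced into a subgroup of index two with a given pattern of generators. -/
def forced (e : ℕ) : List ℕ :=
  ((List.range 4).map fun i => cmpC (gen i) (gen i)) ++
    ((List.range 4).flatMap fun i => (List.range 4).map fun j =>
      cmpC (cmpC (gen i) (gen j)) (cmpC (gen i) (gen j))) ++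
    ((List.range 4).filter fun i => !e.testBit i).map gen ++
    (List.range 4).flatMap fun i =>
      ((List.range 4).filter fun j => decide (i < j) && (e.testBit i == e.testBit j)).map fun j =>
        cmpC (gen i) (gen j)

theorem gen_mem : ((List.range 4).all fun i => (spanR sylSeries).contains (gen i)) = true := by
  decide +kernel

theorem forced_count : ((List.range 16).all fun e =>
    ((spanR sylSeries).filter fun x => (forced e).all fun y => rel x y).length ≤ 16) = true := by
  decide +kernel

theorem sylK_le_of {H : Subgroup (Equiv.Perm GolayPt)}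
    (h : ∀ t, code t ∈ sylSeries.map Prod.fst → t ∈ H) : sylK ≤ H :=
  (Subgroup.closure_le H).2 h

theorem sylA_le_of {H : Subgroup (Equiv.Perm GolayPt)}
    (h : ∀ t, code t ∈ (sylSeries.drop 3).map Prod.fst → t ∈ H) : sylA ≤ H :=
  (Subgroup.closure_le H).2 h

theorem decomp {g : Equiv.Perm GolayPt} (hg : g ∈ sylK) :
    ∃ a ∈ sylA, ∃ t ∈ sylK, code t ∈ cosetList ∧ g = a * t :=
  exists_decomp 3 series_ok.1 g hg

attribute [local irreducible] spanR cmpC code idC sylSeries sylGens sylZ cosetList forced

theorem sylA_spec : SpanSpec (sylSeries.drop 3) := spanSpec _ series_ok.2.1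

theorem sylK_spec : SpanSpec sylSeries := spanSpec _ series_ok.1

theorem mem_sylK {g : Equiv.Perm GolayPt} : g ∈ sylK ↔ code g ∈ spanR sylSeries :=
  sylK_spec.mem_iff g

theorem mem_sylA {g : Equiv.Perm GolayPt} : g ∈ sylA ↔ code g ∈ spanR (sylSeries.drop 3) :=
  sylA_spec.mem_iff g

theorem sylK_le : sylK ≤ M24 := by
  rw [sylK, grpOf, Subgroup.closure_le]
  intro g hg
  obtain ⟨p, hp, e⟩ := List.mem_map.1 hg
  obtain ⟨g', hg', h', -⟩ := series_mem p hp
  rwa [code_injective (show code g = code g' by rw [h', e])]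

theorem card_sylK : Nat.card sylK = 2 ^ 10 := by
  rw [sylK, sylK_spec.card, series_ok.2.2.1]

theorem sylA_le : sylA ≤ sylK := grpOf_drop_le _ _

theorem card_sylA : Nat.card sylA = 128 := by
  rw [sylA, sylA_spec.card, series_ok.2.2.2]; rfl

theorem card_le_of_codes {H : Subgroup (Equiv.Perm GolayPt)} {l : List ℕ}
    (h : ∀ g ∈ H, code g ∈ l) : Nat.card H ≤ l.length := by
  classical
  have := Nat.card_le_card_of_injective
    (fun g : H => (⟨code g, List.mem_toFinset.2 (h g g.2)⟩ : ↥l.toFinset))
    (fun a b e => Subtype.ext (code_injective (congrArg Subtype.val e)))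
  rw [Nat.card_eq_fintype_card (α := ↥l.toFinset), Fintype.card_coe] at this
  exact this.trans (List.toFinset_card_le _)

theorem mem_center_iff {g : sylK} :
    g ∈ Subgroup.center sylK ↔ code (g : Equiv.Perm GolayPt) = idC ∨
      code (g : Equiv.Perm GolayPt) = sylZ := by
  obtain ⟨-, hcomm, hfilter, -⟩ := centre_facts
  simp only [List.all_eq_true, beq_iff_eq, List.mem_filter, Bool.or_eq_true] at hcomm hfilter
  constructor
  · intro hg
    refine hfilter _ ⟨mem_sylK.1 g.2, fun s hs => ?_⟩
    obtain ⟨σ, -, hσ, -⟩ := series_mem s hs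
    have hσK : σ ∈ sylK := Subgroup.subset_closure (List.mem_map.2 ⟨s, hs, hσ.symm⟩)
    rw [← hσ, ← code_mul, ← code_mul]
    exact congrArg (fun y : sylK => code (y : Equiv.Perm GolayPt))
      ((Subgroup.mem_center_iff.1 hg ⟨σ, hσK⟩).symm)
  · rintro (h | h)
    · rw [← code_one] at h
      rw [show g = 1 from Subtype.ext (code_injective h)]
      exact Subgroup.one_mem _
    · have hle : sylK ≤ Subgroup.centralizer ({(g : Equiv.Perm GolayPt)} : Set _) := by
        refine sylK_le_of fun t ht => ?_
        obtain ⟨s, hs, e⟩ := List.mem_map.1 ht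
        refine Subgroup.mem_centralizer_singleton_iff.2 (code_injective ?_)
        rw [code_mul, code_mul, h, ← e]
        exact hcomm s hs
      exact Subgroup.mem_center_iff.2 fun y =>
        Subtype.ext (Subgroup.mem_centralizer_singleton_iff.1 (hle y.2))

/-- The quotient map. -/
abbrev proj : sylK →* sylK ⧸ Subgroup.center sylK := QuotientGroup.mk' _

theorem proj_comm_iff (g h : sylK) :
    proj g * proj h = proj h * proj g ↔
      rel (code (g : Equiv.Perm GolayPt)) (code (h : Equiv.Perm GolayPt)) = true := by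
  rw [← map_mul, ← map_mul, QuotientGroup.mk'_apply, QuotientGroup.mk'_apply, eq_comm,
    QuotientGroup.eq, mem_center_iff, rel, Bool.or_eq_true, beq_iff_eq, beq_iff_eq, ← code_mul,
    ← code_mul]
  constructor
  · rintro (e | e)
    · left
      rw [← code_one] at e
      have e' := code_injective e
      rw [Subgroup.coe_mul, Subgroup.coe_inv, Subgroup.coe_mul, inv_mul_eq_one] at e'
      rw [Subgroup.coe_mul] at e'
      rw [e']
    · right
      rw [← e, ← code_mul]
      congr 1
      simp only [Subgroup.coe_mul, Subgroup.coe_inv]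
      group
  · rintro (e | e)
    · left
      have e' := code_injective e
      rw [← code_one]
      congr 1
      simp [e']
    · right
      obtain ⟨σ, hσ⟩ := sylA_spec.exists_code sylZ (List.contains_iff_mem.1 centre_facts.1)
      rw [← hσ, ← code_mul] at e
      rw [← hσ]
      congr 1
      simp only [Subgroup.coe_mul, Subgroup.coe_inv]
      rw [code_injective e]
      group

theorem card_center : Nat.card (Subgroup.center sylK) = 2 := by
  classical
  obtain ⟨hz, -, -, hne⟩ := centre_facts
  obtain ⟨σ, hσ⟩ := sylA_spec.exists_code sylZ (List.contains_iff_mem.1 hz)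
  have hσK : σ ∈ sylK := sylA_le (mem_sylA.2 (hσ ▸ List.contains_iff_mem.1 hz))
  have hset : ((Subgroup.center sylK : Subgroup sylK) : Set sylK) = {1, ⟨σ, hσK⟩} := by
    ext g
    rw [SetLike.mem_coe, mem_center_iff, Set.mem_insert_iff, Set.mem_singleton_iff]
    constructor
    · rintro (h | h)
      · exact Or.inl (Subtype.ext (code_injective (h.trans code_one.symm)))
      · exact Or.inr (Subtype.ext (code_injective (h.trans hσ.symm)))
    · rintro (rfl | rfl)
      · exact Or.inl code_one
      · exact Or.inr hσ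
  show Nat.card ((Subgroup.center sylK : Subgroup sylK) : Set sylK) = 2
  rw [hset, Nat.card_coe_set_eq, Set.ncard_pair]
  intro e
  apply hne
  rw [← hσ, show σ = 1 from (congrArg Subtype.val e).symm]
  exact code_one

theorem card_quot : Nat.card (sylK ⧸ Subgroup.center sylK) = 512 := by
  have h := Subgroup.card_eq_card_quotient_mul_card_subgroup (Subgroup.center sylK)
  rw [card_center, card_sylK] at h
  omega

theorem card_comap (Y : Subgroup (sylK ⧸ Subgroup.center sylK)) :
    Nat.card (Y.comap proj) = 2 * Nat.card Y := by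
  have h1 := Subgroup.card_mul_index (Y.comap proj)
  rw [Subgroup.index_comap_of_surjective Y (QuotientGroup.mk'_surjective _), card_sylK] at h1
  have h2 := Subgroup.card_mul_index Y
  rw [card_quot] at h2
  have hpos : 0 < Y.index := Nat.pos_of_ne_zero Subgroup.index_ne_zero_of_finite
  exact Nat.eq_of_mul_eq_mul_right hpos (by rw [mul_assoc, h2, h1]; norm_num)

theorem center_le_eight (M : Subgroup (sylK ⧸ Subgroup.center sylK)) (hM : IsCoatom M) :
    Nat.card (Subgroup.center M) ≤ 8 := by
  classical
  haveI : Fact (Nat.Prime 2) := ⟨Nat.prime_two⟩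
  -- the index is two
  have hidx : M.index = 2 := by
    obtain ⟨k, hk, hcard⟩ := (Nat.dvd_prime_pow Nat.prime_two (m := 9)).1
      (show Nat.card M ∣ 2 ^ 9 by
        rw [show (2 : ℕ) ^ 9 = 512 by norm_num, ← card_quot]
        exact Subgroup.card_subgroup_dvd_card M)
    have hne : k ≠ 9 := fun h =>
      hM.1 (Subgroup.eq_top_of_card_eq M (by rw [hcard, h, card_quot]; norm_num))
    obtain ⟨M₁, hM₁, hle⟩ := Sylow.exists_subgroup_card_pow_succ (p := 2) (n := k)
      (by rw [card_quot, show (512 : ℕ) = 2 ^ 9 by norm_num]; exact pow_dvd_pow 2 (by omega)) hcard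
    have hlt : M < M₁ := lt_of_le_of_ne hle fun e => by
      rw [← e, hcard] at hM₁
      exact absurd ((Nat.pow_right_injective le_rfl) hM₁) (by omega)
    rw [hM.2 M₁ hlt, Subgroup.card_top, card_quot] at hM₁
    have hk8 : k = 8 := by
      have : (2 : ℕ) ^ (k + 1) = 2 ^ 9 := by rw [← hM₁]; norm_num
      have := Nat.pow_right_injective le_rfl this
      omega
    have h := Subgroup.card_mul_index M
    rw [hcard, hk8, card_quot] at h
    omega
  set M' := M.comap proj with hM'def
  have hidx' : M'.index = 2 := by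
    rw [hM'def, Subgroup.index_comap_of_surjective M (QuotientGroup.mk'_surjective _), hidx]
  set X : Subgroup (sylK ⧸ Subgroup.center sylK) := (Subgroup.center M).map M.subtype
  have hX : Nat.card X = Nat.card (Subgroup.center M) :=
    Subgroup.card_map_of_injective M.subtype_injective
  -- generators and their pattern
  have hgen : ∀ i : Fin 4, ∃ g : sylK, code (g : Equiv.Perm GolayPt) = gen i := fun i => by
    have hmem := List.contains_iff_mem.1
      (List.all_eq_true.1 gen_mem i (List.mem_range.2 i.2))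
    obtain ⟨g, hg⟩ := sylK_spec.exists_code _ hmem
    exact ⟨⟨g, mem_sylK.2 (hg ▸ hmem)⟩, hg⟩
  choose g hg using hgen
  let e : ℕ := Nat.ofBits fun i : Fin 4 => decide (g i ∉ M')
  have hbit : ∀ i : Fin 4, e.testBit i = decide (g i ∉ M') := fun i =>
    Nat.testBit_ofBits_lt _ i i.2
  have hforced : ∀ y ∈ forced e, ∃ m ∈ M', code ((m : sylK) : Equiv.Perm GolayPt) = y := by
    intro y hy
    simp only [forced, List.mem_append, List.mem_map, List.mem_range, List.mem_flatMap,
      List.mem_filter, Bool.and_eq_true, decide_eq_true_eq, beq_iff_eq, Bool.not_eq_true'] at hy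
    rcases hy with ((⟨i, hi, rfl⟩ | ⟨i, hi, j, hj, rfl⟩) | ⟨i, ⟨hi, hib⟩, rfl⟩) |
      ⟨i, hi, j, ⟨hj, -, hij⟩, rfl⟩
    · refine ⟨g ⟨i, hi⟩ * g ⟨i, hi⟩, Subgroup.mul_self_mem_of_index_two hidx' _, ?_⟩
      rw [Subgroup.coe_mul, code_mul, hg]
    · refine ⟨g ⟨i, hi⟩ * g ⟨j, hj⟩ * (g ⟨i, hi⟩ * g ⟨j, hj⟩),
        Subgroup.mul_self_mem_of_index_two hidx' _, ?_⟩
      rw [Subgroup.coe_mul, Subgroup.coe_mul, code_mul, code_mul, hg, hg]
    · refine ⟨g ⟨i, hi⟩, ?_, hg _⟩
      have h := hbit ⟨i, hi⟩
      simp only [hib] at h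
      simpa using h.symm
    · refine ⟨g ⟨i, hi⟩ * g ⟨j, hj⟩, (Subgroup.mul_mem_iff_of_index_two hidx').2 ?_, ?_⟩
      · have h1 := hbit ⟨i, hi⟩
        have h2 := hbit ⟨j, hj⟩
        simp only [hij] at h1
        rw [h2, decide_eq_decide] at h1
        exact (not_iff_not.1 h1).symm
      · rw [Subgroup.coe_mul, code_mul, hg, hg]
  have hcount : Nat.card ((X.comap proj).map sylK.subtype) ≤
      ((spanR sylSeries).filter fun x => (forced e).all fun y => rel x y).length := by
    refine card_le_of_codes ?_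
    rintro _ ⟨x, hx, rfl⟩
    refine List.mem_filter.2 ⟨mem_sylK.1 x.2, List.all_eq_true.2 fun y hy => ?_⟩
    obtain ⟨m, hm, rfl⟩ := hforced y hy
    refine (proj_comm_iff x m).1 ?_
    obtain ⟨c, hc, hcx⟩ := Subgroup.mem_map.1 (Subgroup.mem_comap.1 hx)
    have := Subgroup.mem_center_iff.1 hc ⟨proj m, Subgroup.mem_comap.1 hm⟩
    have h' := congrArg Subtype.val this
    simp only [Subgroup.coe_mul] at h'
    rw [← hcx]
    exact h'.symm
  rw [Subgroup.card_map_of_injective sylK.subtype_injective, card_comap, hX] at hcount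
  have he : e < 16 := Nat.ofBits_lt_two_pow _
  have hbound := List.all_eq_true.1 forced_count e (List.mem_range.2 he)
  rw [decide_eq_true_eq] at hbound
  omega

/-- The abelian subgroup. -/
abbrev abA : Subgroup (sylK ⧸ Subgroup.center sylK) := (sylA.subgroupOf sylK).map proj

theorem comap_abA : abA.comap proj = sylA.subgroupOf sylK := by
  rw [abA, Subgroup.comap_map_eq_self]
  rw [QuotientGroup.ker_mk']
  intro g hg
  rw [Subgroup.mem_subgroupOf, mem_sylA]
  rcases mem_center_iff.1 hg with h | h <;> rw [h]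
  · rw [← code_one, ← mem_sylA]; exact Subgroup.one_mem _
  · exact List.contains_iff_mem.1 centre_facts.1

theorem card_abA : Nat.card abA = 64 := by
  have h := card_comap abA
  rw [comap_abA, Nat.card_congr (Subgroup.subgroupOfEquivOfLe sylA_le).toEquiv, card_sylA] at h
  omega

theorem abA_comm {g h : sylK} (hg : (g : Equiv.Perm GolayPt) ∈ sylA)
    (hh : (h : Equiv.Perm GolayPt) ∈ sylA) : proj g * proj h = proj h * proj g := by
  have hall := List.all_eq_true.1 abelian_facts.1
  have key : ∀ a : Equiv.Perm GolayPt, a ∈ sylA → ∀ (haK : a ∈ sylK) (b : Equiv.Perm GolayPt),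
      b ∈ sylA → ∀ hbK : b ∈ sylK,
      proj ⟨a, haK⟩ * proj ⟨b, hbK⟩ = proj ⟨b, hbK⟩ * proj ⟨a, haK⟩ := by
    intro a ha
    have hle : sylA.subgroupOf sylK ≤
        (Subgroup.centralizer ((proj '' {x : sylK | (x : Equiv.Perm GolayPt) ∈ sylA}) :
          Set (sylK ⧸ Subgroup.center sylK))).comap proj := by
      have hgen : ∀ u v : sylK, code (u : Equiv.Perm GolayPt) ∈ (sylSeries.drop 3).map Prod.fst →
          code (v : Equiv.Perm GolayPt) ∈ (sylSeries.drop 3).map Prod.fst →
          proj u * proj v = proj v * proj u := by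
        intro u v hu hv
        obtain ⟨s, hs, es⟩ := List.mem_map.1 hu
        obtain ⟨s', hs', es'⟩ := List.mem_map.1 hv
        refine (proj_comm_iff u v).2 ?_
        rw [← es, ← es']
        exact List.all_eq_true.1 (hall s hs) s' hs'
      -- two rounds of generation
      have h1 : ∀ u : sylK, code (u : Equiv.Perm GolayPt) ∈ (sylSeries.drop 3).map Prod.fst →
          ∀ w ∈ sylA.subgroupOf sylK, proj u * proj w = proj w * proj u := by
        intro u hu w hw
        have : sylA ≤ ((Subgroup.centralizer ({proj u} : Set _)).comap proj).map sylK.subtype := by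
          refine sylA_le_of fun t ht => ?_
          refine ⟨⟨t, sylA_le (Subgroup.subset_closure ht)⟩, ?_, rfl⟩
          exact Subgroup.mem_centralizer_singleton_iff.2 (hgen _ _ ht hu)
        obtain ⟨w', hw', e⟩ := this (Subgroup.mem_subgroupOf.1 hw)
        rw [← Subtype.ext e]
        exact (Subgroup.mem_centralizer_singleton_iff.1 hw').symm
      intro w hw
      rw [Subgroup.mem_comap, Subgroup.mem_centralizer_iff]
      rintro _ ⟨v, hv, rfl⟩
      have : sylA ≤ ((Subgroup.centralizer ({proj w} : Set _)).comap proj).map sylK.subtype := by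
        refine sylA_le_of fun t ht => ?_
        refine ⟨⟨t, sylA_le (Subgroup.subset_closure ht)⟩, ?_, rfl⟩
        exact Subgroup.mem_centralizer_singleton_iff.2 (h1 ⟨t, sylA_le (Subgroup.subset_closure ht)⟩ ht w hw)
      obtain ⟨v', hv', e⟩ := this hv
      rw [← Subtype.ext e]
      exact Subgroup.mem_centralizer_singleton_iff.1 hv'
    intro haK b hb hbK
    exact (Subgroup.mem_centralizer_iff.1 (hle (x := ⟨a, haK⟩) (Subgroup.mem_subgroupOf.2 ha))
      _ ⟨⟨b, hbK⟩, hb, rfl⟩).symm
  exact key g hg g.2 h hh h.2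

theorem abA_elementary : IsElementaryAbelian 2 abA := by
  refine ⟨⟨⟨?_⟩⟩, ?_⟩
  · rintro ⟨_, a, ha, rfl⟩ ⟨_, b, hb, rfl⟩
    exact Subtype.ext (abA_comm (Subgroup.mem_subgroupOf.1 ha) (Subgroup.mem_subgroupOf.1 hb))
  · rintro _ ⟨a, ha, rfl⟩
    rw [← map_pow]
    refine (QuotientGroup.eq_one_iff _).2 (mem_center_iff.2 ?_)
    have h := List.all_eq_true.1 abelian_facts.2 _
      (mem_sylA.1 (Subgroup.mem_subgroupOf.1 ha))
    simp only [Bool.or_eq_true, beq_iff_eq] at h
    rw [Subgroup.coe_pow, pow_two, code_mul]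
    exact h

theorem unique_abA (B : Subgroup (sylK ⧸ Subgroup.center sylK)) (hB : IsMulCommutative B)
    (hB64 : Nat.card B = 64) : B = abA := by
  classical
  set B' := B.comap proj with hB'def
  have hB' : Nat.card B' = 128 := by rw [hB'def, card_comap, hB64]
  suffices hle : B' ≤ sylA.subgroupOf sylK by
    have e : B' = sylA.subgroupOf sylK := Subgroup.eq_of_le_of_card_ge hle (by
      rw [Nat.card_congr (Subgroup.subgroupOfEquivOfLe sylA_le).toEquiv, card_sylA, hB'])
    rw [abA, ← e, hB'def, Subgroup.map_comap_eq_self_of_surjective (QuotientGroup.mk'_surjective _)]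
  have hdec : ∀ x : B', ∃ a ∈ sylA, ∃ t ∈ sylK, code t ∈ cosetList ∧
      ((x : sylK) : Equiv.Perm GolayPt) = a * t :=
    fun x => decomp (x : sylK).2
  choose a ha t ht htc hx using hdec
  obtain ⟨hlen, h0, hsingle, hpair, hseven⟩ := coset_facts
  let idx : B' → ℕ := fun x => cosetList.idxOf (code (t x))
  have hidx8 : ∀ x, idx x < 8 := fun x => hlen ▸ List.idxOf_lt_length_of_mem (htc x)
  have hget : ∀ x, cosetList.getD (idx x) 0 = code (t x) := fun x => by
    rw [List.getD_eq_getElem _ _ (List.idxOf_lt_length_of_mem (htc x)), List.getElem_idxOf]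
  haveI : Fintype B' := Fintype.ofFinite _
  set I : Finset ℕ := Finset.univ.image idx with hI
  have hrep : ∀ i : I, ∃ x : B', idx x = i := fun i => by
    obtain ⟨x, -, hx⟩ := Finset.mem_image.1 i.2
    exact ⟨x, hx⟩
  choose rep hrep using hrep
  set N : Subgroup (Equiv.Perm GolayPt) := (B' ⊓ sylA.subgroupOf sylK).map sylK.subtype
  have hfib : ∀ x : B', ((x * (rep ⟨idx x, Finset.mem_image_of_mem idx (Finset.mem_univ x)⟩)⁻¹ : B') :
      sylK) ∈ sylA.subgroupOf sylK := by
    intro x
    set y := rep ⟨idx x, Finset.mem_image_of_mem idx (Finset.mem_univ x)⟩ with hy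
    have hidxy : idx y = idx x := hrep _
    have ht' : t y = t x := code_injective (by rw [← hget, ← hget, hidxy])
    rw [Subgroup.mem_subgroupOf]
    simp only [Subgroup.coe_mul, Subgroup.coe_inv]
    rw [hx x, hx y, ht', show a x * t x * (a y * t x)⁻¹ = a x * (a y)⁻¹ by group]
    exact Subgroup.mul_mem _ (ha x) (Subgroup.inv_mem _ (ha y))
  have hcardle : Nat.card B' ≤ I.card * Nat.card N := by
    rw [Subgroup.card_map_of_injective sylK.subtype_injective]
    have := Nat.card_le_card_of_injective
      (fun x : B' => ((⟨idx x, Finset.mem_image_of_mem idx (Finset.mem_univ x)⟩ : I),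
        (⟨((x * (rep ⟨idx x, Finset.mem_image_of_mem idx (Finset.mem_univ x)⟩)⁻¹ : B') : sylK),
          (x * (rep _)⁻¹).2, hfib x⟩ : ↥(B' ⊓ sylA.subgroupOf sylK))))
      (fun x y e => by
        simp only [Prod.mk.injEq] at e
        obtain ⟨e1, e2⟩ := e
        have e3 := congrArg Subtype.val e2
        simp only [Subgroup.coe_mul, Subgroup.coe_inv, e1] at e3
        exact Subtype.ext (mul_right_cancel e3))
    rwa [Nat.card_prod, Nat.card_eq_fintype_card (α := I), Fintype.card_coe] at this
  have hNmem : ∀ g ∈ N, code g ∈ spanR (sylSeries.drop 3) ∧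
      ∀ i ∈ I, rel (code g) (cosetList.getD i 0) = true := by
    rintro _ ⟨g, ⟨hgB, hgA⟩, rfl⟩
    refine ⟨mem_sylA.1 hgA, fun i hi => ?_⟩
    obtain ⟨x, -, rfl⟩ := Finset.mem_image.1 hi
    rw [hget x]
    refine (proj_comm_iff g ⟨t x, ht x⟩).1 ?_
    have hc : proj g * proj x.1 = proj x.1 * proj g :=
      congrArg Subtype.val (hB.is_comm.comm (⟨proj g, hgB⟩ : B) ⟨proj x.1, x.2⟩)
    have hax : (⟨t x, ht x⟩ : sylK) = (⟨a x, sylA_le (ha x)⟩ : sylK)⁻¹ * x.1 :=
      Subtype.ext (by simp [hx x])
    rw [hax, map_mul, map_inv]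
    have hca := abA_comm (g := g) (h := ⟨a x, sylA_le (ha x)⟩) hgA (ha x)
    calc proj g * ((proj ⟨a x, sylA_le (ha x)⟩)⁻¹ * proj x.1)
        = (proj ⟨a x, sylA_le (ha x)⟩)⁻¹ * (proj ⟨a x, sylA_le (ha x)⟩ * proj g) *
          (proj ⟨a x, sylA_le (ha x)⟩)⁻¹ * proj x.1 := by group
      _ = (proj ⟨a x, sylA_le (ha x)⟩)⁻¹ * (proj g * proj x.1) := by rw [← hca]; group
      _ = _ := by rw [hc, mul_assoc]
  have hbound : ∀ (q : ℕ → Bool) (m : ℕ),
      (∀ c, (∀ i ∈ I, rel c (cosetList.getD i 0) = true) → q c = true) →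
      ((spanR (sylSeries.drop 3)).filter q).length ≤ m → Nat.card N ≤ m :=
    fun q m hq hm => (card_le_of_codes fun g hg =>
      List.mem_filter.2 ⟨(hNmem g hg).1, hq _ (hNmem g hg).2⟩).trans hm
  have hI8 : I ⊆ Finset.range 8 := fun i hi => by
    obtain ⟨x, -, rfl⟩ := Finset.mem_image.1 hi
    exact Finset.mem_range.2 (hidx8 x)
  simp only [List.all_eq_true, List.mem_range, Bool.or_eq_true, beq_iff_eq,
    decide_eq_true_eq] at hsingle hpair
  set J := I.erase 0 with hJ
  have hIJ : I.card ≤ J.card + 1 := by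
    have := Finset.pred_card_le_card_erase (s := I) (a := 0)
    rw [← hJ] at this
    omega
  have hJ7 : J.card ≤ 7 := by
    have h := Finset.card_le_card (Finset.erase_subset_erase 0 hI8)
    rw [← hJ, show ((Finset.range 8).erase 0).card = 7 by decide] at h
    exact h
  rcases Nat.eq_zero_or_pos J.card with hJ0 | hJpos
  · intro x hxB
    have hi0 : idx ⟨x, hxB⟩ = 0 := by
      by_contra hne
      have : idx ⟨x, hxB⟩ ∈ J :=
        Finset.mem_erase.2 ⟨hne, Finset.mem_image_of_mem idx (Finset.mem_univ _)⟩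
      rw [Finset.card_eq_zero.1 hJ0] at this
      exact Finset.notMem_empty _ this
    have ht1 : t ⟨x, hxB⟩ = 1 := code_injective (by rw [code_one, ← hget, hi0, h0])
    rw [Subgroup.mem_subgroupOf, show (x : Equiv.Perm GolayPt) = a ⟨x, hxB⟩ by
      have := hx ⟨x, hxB⟩; rwa [ht1, mul_one] at this]
    exact ha _
  exfalso
  obtain ⟨i, hiJ⟩ := Finset.card_pos.1 hJpos
  obtain ⟨hi0, hiI⟩ := Finset.mem_erase.1 hiJ
  have hi8 := Finset.mem_range.1 (hI8 hiI)
  rcases lt_or_ge J.card 2 with h1 | h2
  · have := hbound (fun c => rel c (cosetList.getD i 0)) 32 (fun c hc => hc i hiI)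
      ((hsingle i hi8).resolve_left hi0)
    have := Nat.mul_le_mul (show I.card ≤ 2 by omega) this
    omega
  rcases lt_or_ge J.card 7 with h3 | h4
  · obtain ⟨j, hjJ, hji⟩ := Finset.exists_mem_ne (show 1 < J.card by omega) i
    obtain ⟨hj0, hjI⟩ := Finset.mem_erase.1 hjJ
    have := hbound (fun c => rel c (cosetList.getD i 0) && rel c (cosetList.getD j 0)) 16
      (fun c hc => by rw [Bool.and_eq_true]; exact ⟨hc i hiI, hc j hjI⟩)
      ((hpair i hi8 j (Finset.mem_range.1 (hI8 hjI))).resolve_left
        (by simp [hi0, hj0, Ne.symm hji]))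
    have := Nat.mul_le_mul (show I.card ≤ 7 by omega) this
    omega
  · have hJeq : J = (Finset.range 8).erase 0 := Finset.eq_of_subset_of_card_le
      (Finset.erase_subset_erase 0 hI8)
      (by rw [show ((Finset.range 8).erase 0).card = 7 by decide]; exact h4)
    have := hbound (fun c => ((List.range 8).erase 0).all fun i => rel c (cosetList.getD i 0)) 8
      (fun c hc => List.all_eq_true.2 fun k hk => hc k (Finset.mem_of_mem_erase (s := I) (a := 0) (by
        rw [← hJ, hJeq, Finset.mem_erase, Finset.mem_range]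
        rw [List.nodup_range.mem_erase_iff, List.mem_range] at hk
        exact hk))) hseven
    have := Nat.mul_le_mul (show I.card ≤ 8 by omega) this
    omega

end CfsgLib.M24Orbits.SylowTwo
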